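/-
k-subsets under the 5-transitive group of the code; counting subsets by intersection size.
-/
import Cfsg.Agent.Lib.Golay.Stab

set_option autoImplicit false

namespace Cfsg.Agent.Lib.M24Orb.Subsets

open Cfsg Cfsg.Agent.Lib.Golay.Core Cfsg.Agent.Lib.Golay.Perm Cfsg.Agent.Lib.Golay.Chain
  Cfsg.Agent.Lib.Golay.M24 Cfsg.Agent.Lib.Golay.Basic Cfsg.Agent.Lib.Golay.Stab
open scoped Pointwise

theorem inter_union_sdiff' {α : Type*} [DecidableEq α] (u v : Finset α) : (u ∩ v) ∪ (u \ v) = u := by
  ext x
  simp only [Finset.mem_union, Finset.mem_inter, Finset.mem_sdiff]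
  tauto

theorem union_eq_three {α : Type*} [DecidableEq α] (s y : Finset α) :
    s ∪ y = (y ∩ s) ∪ (y \ s) ∪ (s \ y) := by
  ext x
  simp only [Finset.mem_union, Finset.mem_inter, Finset.mem_sdiff]
  tauto

/-- Counting `k`-subsets by the size of the intersection with `s`. -/
theorem card_filter_inter {α : Type*} [Fintype α] [DecidableEq α] (s : Finset α) (k j : ℕ)
    (hj : j ≤ k) :
    ((Finset.powersetCard k (Finset.univ : Finset α)).filter fun t => (t ∩ s).card = j).card =
      s.card.choose j * (Fintype.card α - s.card).choose (k - j) := by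
  have h2 : (Finset.powersetCard (k - j) (Finset.univ \ s)).card =
      (Fintype.card α - s.card).choose (k - j) := by
    rw [Finset.card_powersetCard, Finset.card_sdiff_of_subset (Finset.subset_univ _),
      Finset.card_univ]
  rw [← h2, ← (Finset.card_powersetCard j s), ← Finset.card_product]
  apply Finset.card_nbij' (fun t => (t ∩ s, t \ s)) (fun p => p.1 ∪ p.2)
  · intro t ht
    simp only [Finset.coe_filter, Finset.mem_powersetCard, Finset.subset_univ, true_and,
      Set.mem_ofPred_eq] at ht
    simp only [Finset.coe_product, Set.mem_prod, Finset.mem_coe, Finset.mem_powersetCard]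
    refine ⟨⟨Finset.inter_subset_right, ht.2⟩, ?_, ?_⟩
    · exact Finset.sdiff_subset_sdiff (Finset.subset_univ _) (le_refl _)
    · have := Finset.card_sdiff_add_card_inter t s
      rw [ht.1, ht.2] at this
      omega
  · rintro ⟨A, B⟩ hp
    simp only [Finset.coe_product, Set.mem_prod, Finset.mem_coe, Finset.mem_powersetCard] at hp
    obtain ⟨⟨hA, hAc⟩, hB, hBc⟩ := hp
    have hd : Disjoint A B := by
      rw [Finset.disjoint_left]
      intro x hx hx'
      exact (Finset.mem_sdiff.mp (hB hx')).2 (hA hx)
    simp only [Finset.coe_filter, Finset.mem_powersetCard, Finset.subset_univ, true_and,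
      Set.mem_ofPred_eq]
    have hi : (A ∪ B) ∩ s = A := by
      ext x
      simp only [Finset.mem_inter, Finset.mem_union]
      constructor
      · rintro ⟨hx | hx, hs⟩
        · exact hx
        · exact absurd hs (Finset.mem_sdiff.mp (hB hx)).2
      · intro hx
        exact ⟨Or.inl hx, hA hx⟩
    refine ⟨?_, by rw [hi, hAc]⟩
    rw [Finset.card_union_of_disjoint hd, hAc, hBc]
    omega
  · intro t _
    exact inter_union_sdiff' t s
  · rintro ⟨A, B⟩ hp
    simp only [Finset.coe_product, Set.mem_prod, Finset.mem_coe, Finset.mem_powersetCard] at hp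
    obtain ⟨⟨hA, hAc⟩, hB, hBc⟩ := hp
    apply Prod.ext
    · ext x
      simp only [Finset.mem_inter, Finset.mem_union]
      constructor
      · rintro ⟨hx | hx, hs⟩
        · exact hx
        · exact absurd hs (Finset.mem_sdiff.mp (hB hx)).2
      · intro hx
        exact ⟨Or.inl hx, hA hx⟩
    · ext x
      simp only [Finset.mem_sdiff, Finset.mem_union]
      constructor
      · rintro ⟨hx | hx, hs⟩
        · exact absurd (hA hx) hs
        · exact hx
      · intro hx
        exact ⟨Or.inr hx, (Finset.mem_sdiff.mp (hB hx)).2⟩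

theorem ncard_inter_eq {α : Type*} [Fintype α] [DecidableEq α] (s : Finset α) (k j : ℕ)
    (hj : j ≤ k) :
    {t : Finset α | t.card = k ∧ (t ∩ s).card = j}.ncard =
      s.card.choose j * (Fintype.card α - s.card).choose (k - j) := by
  rw [← card_filter_inter s k j hj, ← Set.ncard_coe_finset]
  congr 1
  ext t
  simp only [Set.mem_ofPred_eq, Finset.coe_filter, Finset.mem_powersetCard, Finset.subset_univ,
    true_and]

/-- The group acts on lists of at most five distinct points transitively. -/
theorem exists_map_list (l l' : List GolayPt) (hlen : l.length = l'.length) (hk : l.length ≤ 5)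
    (hn : l.Nodup) (hn' : l'.Nodup) : ∃ σ ∈ M24, l.map σ = l' := by
  let x : Fin l.length ↪ GolayPt := ⟨fun i => l.get i, List.nodup_iff_injective_get.mp hn⟩
  let y : Fin l.length ↪ GolayPt :=
    ⟨fun i => l'.get (Fin.cast hlen i), fun a b h =>
      Fin.ext (by
        have := List.nodup_iff_injective_get.mp hn' h
        simpa using congrArg Fin.val this)⟩
  obtain ⟨σ, hσ, h⟩ := exists_map_tuple hk x y
  refine ⟨σ, hσ, ?_⟩
  apply List.ext_get
  · simpa using hlen
  · intro i h1 h2
    have := h ⟨i, by simpa using h1⟩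
    simpa [x, y] using this

theorem smul_toFinset (σ : Equiv.Perm GolayPt) (l : List GolayPt) :
    σ • l.toFinset = (l.map σ).toFinset := by
  ext p
  simp only [Finset.mem_smul_finset, List.mem_toFinset, List.mem_map, Equiv.Perm.smul_def]

/-- Three blocks of points of total size at most five can be moved simultaneously. -/
theorem exists_smul_three {A B C A' B' C' : Finset GolayPt}
    (hAB : Disjoint A B) (hAC : Disjoint A C) (hBC : Disjoint B C)
    (hAB' : Disjoint A' B') (hAC' : Disjoint A' C') (hBC' : Disjoint B' C')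
    (hA : A.card = A'.card) (hB : B.card = B'.card) (hC : C.card = C'.card)
    (hk : A.card + B.card + C.card ≤ 5) :
    ∃ σ ∈ M24, σ • A = A' ∧ σ • B = B' ∧ σ • C = C' := by
  have hnd : ∀ {P Q R : Finset GolayPt}, Disjoint P Q → Disjoint P R → Disjoint Q R →
      (P.toList ++ Q.toList ++ R.toList).Nodup := by
    intro P Q R h1 h2 h3
    rw [List.nodup_append, List.nodup_append]
    refine ⟨⟨P.nodup_toList, Q.nodup_toList, ?_⟩, R.nodup_toList, ?_⟩
    · intro a ha b hb hab
      subst hab
      exact Finset.disjoint_left.mp h1 (Finset.mem_toList.mp ha) (Finset.mem_toList.mp hb)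
    · intro a ha b hb hab
      subst hab
      rcases List.mem_append.mp ha with ha | ha
      · exact Finset.disjoint_left.mp h2 (Finset.mem_toList.mp ha) (Finset.mem_toList.mp hb)
      · exact Finset.disjoint_left.mp h3 (Finset.mem_toList.mp ha) (Finset.mem_toList.mp hb)
  obtain ⟨σ, hσ, h⟩ := exists_map_list (A.toList ++ B.toList ++ C.toList)
    (A'.toList ++ B'.toList ++ C'.toList)
    (by simp [hA, hB, hC]) (by simp only [List.length_append, Finset.length_toList]; exact hk) (hnd hAB hAC hBC) (hnd hAB' hAC' hBC')
  rw [List.map_append, List.map_append] at h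
  have h1 := List.append_inj h (by simp [hA, hB])
  have h2 := List.append_inj h1.1 (by simp [hA])
  refine ⟨σ, hσ, ?_, ?_, ?_⟩
  · have := congrArg List.toFinset h2.1
    rw [← smul_toFinset, Finset.toList_toFinset, Finset.toList_toFinset] at this
    exact this
  · have := congrArg List.toFinset h2.2
    rw [← smul_toFinset, Finset.toList_toFinset, Finset.toList_toFinset] at this
    exact this
  · have := congrArg List.toFinset h1.2
    rw [← smul_toFinset, Finset.toList_toFinset, Finset.toList_toFinset] at this
    exact this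

theorem smul_union' (σ : Equiv.Perm GolayPt) (A B : Finset GolayPt) :
    σ • (A ∪ B) = σ • A ∪ σ • B := Finset.smul_finset_union

theorem card_inter_add_sdiff (y s : Finset GolayPt) : (y ∩ s).card + (y \ s).card = y.card := by
  have := Finset.card_sdiff_add_card_inter y s
  omega

/-- Simultaneous action on two small sets with the same intersection pattern. -/
theorem exists_smul_pair {s s' y y' : Finset GolayPt} (hs : s.card = s'.card)
    (hy : y.card = y'.card) (hi : (y ∩ s).card = (y' ∩ s').card)
    (hk : (s ∪ y).card ≤ 5) :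
    ∃ σ ∈ M24, σ • s = s' ∧ σ • y = y' := by
  have dis : ∀ u v : Finset GolayPt, Disjoint (u ∩ v) (u \ v) ∧ Disjoint (u ∩ v) (v \ u) ∧
      Disjoint (u \ v) (v \ u) := by
    intro u v
    refine ⟨?_, ?_, ?_⟩
    · rw [Finset.disjoint_left]
      intro x hx hx'
      exact (Finset.mem_sdiff.mp hx').2 (Finset.mem_inter.mp hx).2
    · rw [Finset.disjoint_left]
      intro x hx hx'
      exact (Finset.mem_sdiff.mp hx').2 (Finset.mem_inter.mp hx).1
    · rw [Finset.disjoint_left]
      intro x hx hx'
      exact (Finset.mem_sdiff.mp hx').2 (Finset.mem_sdiff.mp hx).1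
  have hsplit : ∀ u v : Finset GolayPt, (u ∩ v) ∪ (u \ v) = u := fun u v => inter_union_sdiff' u v
  have hsplit' : ∀ u v : Finset GolayPt, (u ∩ v) ∪ (v \ u) = v := by
    intro u v
    rw [Finset.inter_comm]
    exact inter_union_sdiff' v u
  have hcardA := card_inter_add_sdiff y s
  have hcardA' := card_inter_add_sdiff y' s'
  have hcardB := card_inter_add_sdiff s y
  have hcardB' := card_inter_add_sdiff s' y'
  rw [Finset.inter_comm] at hcardB hcardB'
  have hun : (y ∩ s).card + (y \ s).card + (s \ y).card = (s ∪ y).card := by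
    rw [union_eq_three s y, Finset.card_union_of_disjoint, Finset.card_union_of_disjoint (dis y s).1]
    rw [Finset.disjoint_union_left]
    exact ⟨(dis y s).2.1, (dis y s).2.2⟩
  obtain ⟨σ, hσ, h1, h2, h3⟩ := exists_smul_three (dis y s).1 (dis y s).2.1 (dis y s).2.2
    (dis y' s').1 (dis y' s').2.1 (dis y' s').2.2 hi (by omega) (by omega) (by omega)
  refine ⟨σ, hσ, ?_, ?_⟩
  · rw [← hsplit' y s, smul_union', h1, h3, hsplit' y' s']
  · rw [← hsplit y s, smul_union', h1, h2, hsplit y' s']

/-- The orbit of a small set is the family of all sets of that size. -/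
theorem exists_smul_of_card {s s' : Finset GolayPt} (hs : s.card = s'.card) (hk : s.card ≤ 5) :
    ∃ σ ∈ M24, σ • s = s' := by
  obtain ⟨σ, hσ, h, _⟩ := exists_smul_pair (y := s) (y' := s') hs hs (by simpa using hs)
    (by simpa using hk)
  exact ⟨σ, hσ, h⟩

theorem orbit_eq_of_card {s : Finset GolayPt} (hk : s.card ≤ 5) :
    MulAction.orbit M24 s = {t : Finset GolayPt | t.card = s.card} := by
  ext t
  constructor
  · rintro ⟨g, rfl⟩
    show ((g : Equiv.Perm GolayPt) • s).card = s.card
    rw [Finset.card_smul_finset]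
  · intro ht
    obtain ⟨σ, hσ, h⟩ := exists_smul_of_card (s := s) (s' := t) (Eq.symm ht) hk
    exact ⟨⟨σ, hσ⟩, h⟩

theorem card_all_subsets {k : ℕ} :
    {t : Finset GolayPt | t.card = k}.ncard = Nat.choose 24 k := by
  rw [← card_golayPt, ← Finset.card_univ, ← Finset.card_powersetCard, ← Set.ncard_coe_finset]
  congr 1
  ext t
  simp [Finset.mem_powersetCard]

end Cfsg.Agent.Lib.M24Orb.Subsets
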