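/-
Subgroups of order 887040 of the group of the code: they are the stabilisers of pairs of points.
-/
import Cfsg.Agent.Lib.M24Orb.Subsets
import Cfsg.Agent.Lib.Golay.Stab

set_option autoImplicit false

namespace Cfsg.Agent.Lib.M24Orb.Index276

open Cfsg Cfsg.Agent.Lib.Golay.Core Cfsg.Agent.Lib.Golay.Perm Cfsg.Agent.Lib.Golay.Chain
  Cfsg.Agent.Lib.Golay.M24 Cfsg.Agent.Lib.Golay.Basic Cfsg.Agent.Lib.Golay.Stab
open scoped Pointwise

/-- An element of prime order fixing five points has order dividing 48. -/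
theorem prime_dvd_of_five {σ : Equiv.Perm GolayPt} (hσ : σ ∈ M24) {p : ℕ} (hp : p.Prime)
    (hσ1 : σ ≠ 1) (hpow : σ ^ p = 1) {E : Finset GolayPt} (hE : 5 ≤ E.card)
    (hfix : ∀ x ∈ E, σ x = x) : p ∣ 48 := by
  classical
  have : Fact p.Prime := ⟨hp⟩
  obtain ⟨y, hy⟩ := exists_embedding hE
  obtain ⟨τ, hτ, h⟩ := exists_map_five y
  have hm : τ⁻¹ * σ * τ ∈ Fix [3, 2, 1, 0, 23] := by
    refine mem_Fix.mpr ⟨M24.mul_mem (M24.mul_mem (M24.inv_mem hτ) hσ) hτ, ?_⟩
    have key : ∀ i : Fin 5, (τ⁻¹ * σ * τ) (pt (baseF i)) = pt (baseF i) := by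
      intro i
      simp only [Equiv.Perm.mul_apply, h i, hfix _ (hy i)]
      rw [← h i]
      simp
    intro x hx
    simp only [List.mem_cons, List.not_mem_nil, or_false] at hx
    rcases hx with rfl | rfl | rfl | rfl | rfl
    · exact key 4
    · exact key 3
    · exact key 2
    · exact key 1
    · exact key 0
  have hne : τ⁻¹ * σ * τ ≠ 1 := by
    intro h1
    apply hσ1
    have h2 : τ⁻¹ * σ = τ⁻¹ := eq_of_mul_inv_eq_one (by simpa using h1)
    exact mul_left_cancel (h2.trans (mul_one τ⁻¹).symm)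
  have hpw : (τ⁻¹ * σ * τ) ^ p = 1 := by
    have h1 := conj_pow (a := τ⁻¹) (b := σ) (i := p)
    rw [inv_inv] at h1
    rw [h1, hpow, mul_one, inv_mul_cancel]
  have hord : orderOf (τ⁻¹ * σ * τ) = p := orderOf_eq_prime hpw hne
  have hord2 : orderOf (⟨_, hm⟩ : Fix [3, 2, 1, 0, 23]) = p := by
    rw [← hord]
    exact Subgroup.orderOf_mk _ _
  rw [← hord2, ← card_F5]
  exact orderOf_dvd_natCard _

/-- The fixed points of a permutation. -/
def fixS (σ : Equiv.Perm GolayPt) : Finset GolayPt := Finset.univ.filter fun x => σ x = x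

@[simp] theorem mem_fixS {σ : Equiv.Perm GolayPt} {x : GolayPt} : x ∈ fixS σ ↔ σ x = x := by
  simp [fixS]

/-- The congruence for fixed points on an invariant set. -/
theorem card_modEq_fix {α : Type*} [Fintype α] [DecidableEq α] (σ : Equiv.Perm α) (p : ℕ)
    [Fact p.Prime] (hσ : σ ^ p = 1) (Ω : Finset α) (hΩ : ∀ x, σ x ∈ Ω ↔ x ∈ Ω) :
    Ω.card ≡ (Ω.filter fun x => σ x = x).card [MOD p] := by
  let τ : Equiv.Perm ↥Ω := σ.subtypePerm (fun x => hΩ x)
  have hτ : τ ^ p = 1 := by
    ext x
    simp [τ, Equiv.Perm.subtypePerm_pow, hσ]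
  let f : Function.End ↥Ω := (τ : ↥Ω → ↥Ω)
  have h1 : f ^ p ^ 1 = 1 := by
    rw [pow_one]
    have h0 : ∀ (n : ℕ) (x : ↥Ω), (f ^ n) x = (τ ^ n) x := by
      intro n
      induction n with
      | zero => intro x; rfl
      | succ n ih =>
        intro x
        rw [pow_succ, pow_succ]
        show (f ^ n) (f x) = (τ ^ n) (τ x)
        rw [ih]
    funext x
    rw [h0, hτ]
    rfl
  have h2 := Equiv.Perm.card_fixedPoints_modEq h1
  have h3 : Fintype.card ↥Ω = Ω.card := Fintype.card_coe Ω
  have h4 : Fintype.card (Function.fixedPoints f) =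
      (Ω.filter fun x => σ x = x).card := by
    rw [← Fintype.card_coe]
    apply Fintype.card_congr
    exact
      { toFun := fun x => ⟨x.1.1, Finset.mem_filter.mpr ⟨x.1.2, congrArg Subtype.val x.2⟩⟩
        invFun := fun x => ⟨⟨x.1, (Finset.mem_filter.mp x.2).1⟩,
          Subtype.ext (Finset.mem_filter.mp x.2).2⟩
        left_inv := fun _ => rfl
        right_inv := fun _ => rfl }
  rwa [h3, h4] at h2

theorem card_fixS_le {σ : Equiv.Perm GolayPt} (hσ : σ ∈ M24) {p : ℕ} (hp : p.Prime) (hp48 : ¬ p ∣ 48)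
    (hσ1 : σ ≠ 1) (hpow : σ ^ p = 1) : (fixS σ).card < 5 := by
  by_contra h
  exact hp48 (prime_dvd_of_five hσ hp hσ1 hpow (not_lt.mp h) (fun x hx => mem_fixS.mp hx))

theorem card_fixS_modEq (σ : Equiv.Perm GolayPt) (p : ℕ) [Fact p.Prime] (hσ : σ ^ p = 1) :
    24 ≡ (fixS σ).card [MOD p] := by
  have h := card_modEq_fix σ p hσ Finset.univ (by simp)
  rwa [Finset.card_univ, card_golayPt] at h

theorem card_fix7 {σ : Equiv.Perm GolayPt} (hσ : σ ∈ M24) (hσ1 : σ ≠ 1) (hpow : σ ^ 7 = 1) :
    (fixS σ).card = 3 := by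
  have : Fact (Nat.Prime 7) := ⟨by norm_num⟩
  have h1 := card_fixS_le hσ (p := 7) (by norm_num) (by norm_num) hσ1 hpow
  have h2 := card_fixS_modEq σ 7 hpow
  unfold Nat.ModEq at h2
  omega

theorem card_fix11 {σ : Equiv.Perm GolayPt} (hσ : σ ∈ M24) (hσ1 : σ ≠ 1) (hpow : σ ^ 11 = 1) :
    (fixS σ).card = 2 := by
  have : Fact (Nat.Prime 11) := ⟨by norm_num⟩
  have h1 := card_fixS_le hσ (p := 11) (by norm_num) (by norm_num) hσ1 hpow
  have h2 := card_fixS_modEq σ 11 hpow
  unfold Nat.ModEq at h2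
  omega

/-! ## Orbits -/

open Classical in
/-- The orbit of a point under a group of permutations, as a finite set. -/
noncomputable def orb (K : Subgroup (Equiv.Perm GolayPt)) (a : GolayPt) : Finset GolayPt :=
  Finset.univ.filter fun p => ∃ x ∈ K, x a = p

theorem mem_orb {K : Subgroup (Equiv.Perm GolayPt)} {a p : GolayPt} :
    p ∈ orb K a ↔ ∃ x ∈ K, x a = p := by
  simp [orb]

theorem self_mem_orb (K : Subgroup (Equiv.Perm GolayPt)) (a : GolayPt) : a ∈ orb K a :=
  mem_orb.mpr ⟨1, K.one_mem, rfl⟩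

theorem smul_mem_orb {K : Subgroup (Equiv.Perm GolayPt)} {a : GolayPt} {x : Equiv.Perm GolayPt}
    (hx : x ∈ K) (p : GolayPt) : x p ∈ orb K a ↔ p ∈ orb K a := by
  constructor
  · intro h
    obtain ⟨y, hy, hya⟩ := mem_orb.mp h
    refine mem_orb.mpr ⟨x⁻¹ * y, K.mul_mem (K.inv_mem hx) hy, ?_⟩
    simp [hya]
  · intro h
    obtain ⟨y, hy, rfl⟩ := mem_orb.mp h
    exact mem_orb.mpr ⟨x * y, K.mul_mem hx hy, rfl⟩

/-- The stabiliser of a point in a group of permutations. -/
abbrev stabK (K : Subgroup (Equiv.Perm GolayPt)) (a : GolayPt) : Subgroup (Equiv.Perm GolayPt) :=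
  K ⊓ MulAction.stabilizer (Equiv.Perm GolayPt) a

theorem mem_stabK {K : Subgroup (Equiv.Perm GolayPt)} {a : GolayPt} {x : Equiv.Perm GolayPt} :
    x ∈ stabK K a ↔ x ∈ K ∧ x a = a := by
  rw [Subgroup.mem_inf, MulAction.mem_stabilizer_iff]
  rfl

theorem card_orb_mul (K : Subgroup (Equiv.Perm GolayPt)) (a : GolayPt) :
    (orb K a).card * Nat.card (stabK K a) = Nat.card K := by
  have h1 := Subgroup.card_mul_index (MulAction.stabilizer K a)
  have h2 : (MulAction.orbit K a).ncard = (orb K a).card := by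
    rw [← Set.ncard_coe_finset]
    congr 1
    ext p
    simp only [Finset.mem_coe, mem_orb, MulAction.mem_orbit_iff]
    constructor
    · rintro ⟨x, rfl⟩
      exact ⟨x.1, x.2, rfl⟩
    · rintro ⟨x, hx, rfl⟩
      exact ⟨⟨x, hx⟩, rfl⟩
  rw [MulAction.index_stabilizer, h2] at h1
  rw [← h1, mul_comm]
  congr 1
  exact (Nat.card_congr (mapEquiv K (MulAction.stabilizer K a) (stabK K a) (by
    intro x
    rw [mem_stabK]
    constructor
    · rintro ⟨h3, h4⟩
      exact ⟨h3, MulAction.mem_stabilizer_iff.mpr h4⟩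
    · rintro ⟨h3, h4⟩
      exact ⟨h3, MulAction.mem_stabilizer_iff.mp h4⟩)).toEquiv).symm

/-- The sizes of an orbit of a point fixed by an element of order 11. -/
theorem orbit_size {K : Subgroup (Equiv.Perm GolayPt)} (hK : K ≤ M24) {t e : Equiv.Perm GolayPt}
    (ht : t ∈ K) (he : e ∈ K) (ht1 : t ≠ 1) (ht11 : t ^ 11 = 1) (he1 : e ≠ 1) (he7 : e ^ 7 = 1)
    {a : GolayPt} (hta : t a = a) :
    (orb K a).card = 1 ∨ (orb K a).card = 2 ∨ (orb K a).card = 23 ∨ (orb K a).card = 24 := by
  have : Fact (Nat.Prime 7) := ⟨by norm_num⟩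
  have : Fact (Nat.Prime 11) := ⟨by norm_num⟩
  have h1 := card_modEq_fix t 11 ht11 (orb K a) (smul_mem_orb ht)
  have h2 := card_modEq_fix e 7 he7 (orb K a) (smul_mem_orb he)
  have hfix1 : ((orb K a).filter fun x => t x = x).card ≤ (fixS t).card :=
    Finset.card_le_card (fun x hx => mem_fixS.mpr (Finset.mem_filter.mp hx).2)
  have hfix2 : ((orb K a).filter fun x => e x = x).card ≤ (fixS e).card :=
    Finset.card_le_card (fun x hx => mem_fixS.mpr (Finset.mem_filter.mp hx).2)
  have hpos : 0 < ((orb K a).filter fun x => t x = x).card :=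
    Finset.card_pos.mpr ⟨a, Finset.mem_filter.mpr ⟨self_mem_orb K a, hta⟩⟩
  rw [card_fix11 (hK ht) ht1 ht11] at hfix1
  rw [card_fix7 (hK he) he1 he7] at hfix2
  have hle : (orb K a).card ≤ 24 := by
    have := Finset.card_le_univ (orb K a)
    rwa [card_golayPt] at this
  have hp : 0 < (orb K a).card := Finset.card_pos.mpr ⟨a, self_mem_orb K a⟩
  unfold Nat.ModEq at h1 h2
  generalize ((orb K a).filter fun x => t x = x).card = u at *
  generalize ((orb K a).filter fun x => e x = x).card = v at *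
  generalize (orb K a).card = n at *
  have hv : v ≤ 3 := hfix2
  have hu : u = 1 ∨ u = 2 := by omega
  interval_cases n <;> omega

/-- The sizes of an orbit under a group fixing a point. -/
theorem orbit_size' {K : Subgroup (Equiv.Perm GolayPt)} (hK : K ≤ M24) {t e : Equiv.Perm GolayPt}
    (ht : t ∈ K) (he : e ∈ K) (ht1 : t ≠ 1) (ht11 : t ^ 11 = 1) (he1 : e ≠ 1) (he7 : e ^ 7 = 1)
    {p a : GolayPt} (hfix : ∀ x ∈ K, x p = p) (hap : a ≠ p) (hta : t a = a) :
    (orb K a).card = 1 ∨ (orb K a).card = 23 := by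
  have : Fact (Nat.Prime 7) := ⟨by norm_num⟩
  have : Fact (Nat.Prime 11) := ⟨by norm_num⟩
  have h1 := card_modEq_fix t 11 ht11 (orb K a) (smul_mem_orb ht)
  have h2 := card_modEq_fix e 7 he7 (orb K a) (smul_mem_orb he)
  have hpn : p ∉ orb K a := by
    intro h
    obtain ⟨x, hx, hxa⟩ := mem_orb.mp h
    apply hap
    apply x.injective
    rw [hxa, hfix x hx]
  have hfix1 : ((orb K a).filter fun x => t x = x).card ≤ ((fixS t).erase p).card := by
    apply Finset.card_le_card
    intro x hx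
    obtain ⟨h3, h4⟩ := Finset.mem_filter.mp hx
    refine Finset.mem_erase.mpr ⟨?_, mem_fixS.mpr h4⟩
    rintro rfl
    exact hpn h3
  have hfix2 : ((orb K a).filter fun x => e x = x).card ≤ ((fixS e).erase p).card := by
    apply Finset.card_le_card
    intro x hx
    obtain ⟨h3, h4⟩ := Finset.mem_filter.mp hx
    refine Finset.mem_erase.mpr ⟨?_, mem_fixS.mpr h4⟩
    rintro rfl
    exact hpn h3
  rw [Finset.card_erase_of_mem (mem_fixS.mpr (hfix t ht)), card_fix11 (hK ht) ht1 ht11] at hfix1
  rw [Finset.card_erase_of_mem (mem_fixS.mpr (hfix e he)), card_fix7 (hK he) he1 he7] at hfix2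
  have hpos : 0 < ((orb K a).filter fun x => t x = x).card :=
    Finset.card_pos.mpr ⟨a, Finset.mem_filter.mpr ⟨self_mem_orb K a, hta⟩⟩
  have hle : (orb K a).card ≤ 24 := by
    have := Finset.card_le_univ (orb K a)
    rwa [card_golayPt] at this
  have hp : 0 < (orb K a).card := Finset.card_pos.mpr ⟨a, self_mem_orb K a⟩
  unfold Nat.ModEq at h1 h2
  generalize ((orb K a).filter fun x => t x = x).card = u at *
  generalize ((orb K a).filter fun x => e x = x).card = v at *
  generalize (orb K a).card = n at *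
  have hv : v ≤ 2 := hfix2
  have hu : u = 1 := by omega
  interval_cases n <;> omega

/-- An element of prime order from Cauchy's theorem. -/
theorem exists_order (K : Subgroup (Equiv.Perm GolayPt)) {p : ℕ} (hp : p.Prime)
    (h : p ∣ Nat.card K) : ∃ t ∈ K, t ≠ 1 ∧ t ^ p = 1 := by
  have : Fact p.Prime := ⟨hp⟩
  obtain ⟨x, hx⟩ := exists_prime_orderOf_dvd_card' (G := ↥K) p h
  refine ⟨x.1, x.2, ?_, ?_⟩
  · intro h1
    have : x = 1 := Subtype.ext h1
    rw [this, orderOf_one] at hx
    exact hp.one_lt.ne hx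
  · have := pow_orderOf_eq_one x
    rw [hx] at this
    exact congrArg Subtype.val this

/-- The transitive case does not occur. -/
theorem not_transitive {K : Subgroup (Equiv.Perm GolayPt)} (hK : K ≤ M24)
    (hcard : Nat.card K = 887040) (htr : ∀ p, (orb K p).card = 24) : False := by
  have hs : ∀ p, Nat.card (stabK K p) = 36960 := by
    intro p
    have h1 := card_orb_mul K p
    rw [htr, hcard] at h1
    generalize Nat.card ↥(stabK K p) = n at h1 ⊢
    omega
  have hK2 : ∀ p, stabK K p ≤ M24 := fun p => inf_le_left.trans hK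
  -- the second fixed point
  have key : ∀ p, ∃ q, q ≠ p ∧ stabK K p = stabK K q := by
    intro p
    obtain ⟨t, ht, ht1, ht11⟩ := exists_order (stabK K p) (p := 11) (by norm_num)
      (by rw [hs]; norm_num)
    obtain ⟨e, he, he1, he7⟩ := exists_order (stabK K p) (p := 7) (by norm_num)
      (by rw [hs]; norm_num)
    have hfixp : ∀ x ∈ stabK K p, x p = p := fun x hx => (mem_stabK.mp hx).2
    have hc := card_fix11 (hK2 p ht) ht1 ht11
    obtain ⟨q, hq, hqp⟩ : ∃ q ∈ fixS t, q ≠ p := by
      apply Finset.exists_mem_ne (by omega)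
    have hq' := mem_fixS.mp hq
    have h1 := orbit_size' (hK2 p) ht he ht1 ht11 he1 he7 hfixp hqp hq'
    have h2 := card_orb_mul (stabK K p) q
    rw [hs] at h2
    have h3 : (orb (stabK K p) q).card = 1 := by
      rcases h1 with h1 | h1
      · exact h1
      · exfalso
        rw [h1] at h2
        generalize Nat.card ↥(stabK (stabK K p) q) = n at h2
        omega
    have hle : stabK K p ≤ stabK K q := by
      intro x hx
      refine mem_stabK.mpr ⟨(mem_stabK.mp hx).1, ?_⟩
      obtain ⟨y, hy⟩ := Finset.card_eq_one.mp h3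
      have h4 := self_mem_orb (stabK K p) q
      have h5 : x q ∈ orb (stabK K p) q := (smul_mem_orb hx q).mpr h4
      rw [hy, Finset.mem_singleton] at h4 h5
      exact h5.trans h4.symm
    refine ⟨q, hqp, ?_⟩
    have : Finite ↥(stabK K q) := inferInstance
    exact Subgroup.eq_of_le_of_card_ge hle (by rw [hs, hs])
  obtain ⟨e, he, he1, he7⟩ := exists_order K (p := 7) (by norm_num) (by rw [hcard]; norm_num)
  have hc := card_fix7 (hK he) he1 he7
  obtain ⟨p, hp⟩ : (fixS e).Nonempty := Finset.card_pos.mp (by omega)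
  obtain ⟨q, hqp, hpq⟩ := key p
  have hep : e ∈ stabK K p := mem_stabK.mpr ⟨he, mem_fixS.mp hp⟩
  have hq : e q = q := (mem_stabK.mp (hpq ▸ hep)).2
  have hq' : q ∈ fixS e := mem_fixS.mpr hq
  obtain ⟨r, hr, hrp, hrq⟩ : ∃ r ∈ fixS e, r ≠ p ∧ r ≠ q := by
    by_contra hcon
    push Not at hcon
    have hsub : fixS e ⊆ {p, q} := by
      intro x hx
      by_cases hxp : x = p
      · simp [hxp]
      · simp [hcon x hx hxp]
    have := Finset.card_le_card hsub
    have h2 := Finset.card_le_two (a := p) (b := q)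
    omega
  obtain ⟨r', hr'r, hrr'⟩ := key r
  have her : e ∈ stabK K r := mem_stabK.mpr ⟨he, mem_fixS.mp hr⟩
  have hr' : e r' = r' := (mem_stabK.mp (hrr' ▸ her)).2
  have hr'mem : r' = p ∨ r' = q := by
    by_contra hcon
    push Not at hcon
    have hsub : ({p, q, r, r'} : Finset GolayPt) ⊆ fixS e := by
      intro x hx
      simp only [Finset.mem_insert, Finset.mem_singleton] at hx
      rcases hx with rfl | rfl | rfl | rfl
      · exact hp
      · exact hq'
      · exact hr
      · exact mem_fixS.mpr hr'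
    have h4 : ({p, q, r, r'} : Finset GolayPt).card = 4 := by
      rw [Finset.card_eq_succ]
      refine ⟨p, {q, r, r'}, ?_, rfl, ?_⟩
      · simp only [Finset.mem_insert, Finset.mem_singleton, not_or]
        exact ⟨hqp.symm, hrp.symm, hcon.1.symm⟩
      · rw [Finset.card_eq_three]
        exact ⟨q, r, r', hrq.symm, hcon.2.symm, hr'r.symm, rfl⟩
    have := Finset.card_le_card hsub
    omega
  have heq : stabK K p = stabK K r := by
    rcases hr'mem with rfl | rfl
    · exact hrr'.symm
    · exact hpq.trans hrr'.symm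
  obtain ⟨t, ht, ht1, ht11⟩ := exists_order (stabK K p) (p := 11) (by norm_num)
    (by rw [hs]; norm_num)
  have hc2 := card_fix11 (hK2 p ht) ht1 ht11
  have hsub : ({p, q, r} : Finset GolayPt) ⊆ fixS t := by
    intro x hx
    simp only [Finset.mem_insert, Finset.mem_singleton] at hx
    rcases hx with rfl | rfl | rfl
    · exact mem_fixS.mpr (mem_stabK.mp ht).2
    · exact mem_fixS.mpr (mem_stabK.mp (hpq ▸ ht)).2
    · exact mem_fixS.mpr (mem_stabK.mp (heq ▸ ht)).2
  have h3 : ({p, q, r} : Finset GolayPt).card = 3 :=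
    Finset.card_eq_three.mpr ⟨p, q, r, hqp.symm, hrp.symm, hrq.symm, rfl⟩
  have := Finset.card_le_card hsub
  omega

/-- The order of the stabiliser of a pair of points. -/
theorem card_stab_pair {s : Finset GolayPt} (hs : s.card = 2) :
    Nat.card (MulAction.stabilizer M24 s) = 887040 := by
  have h1 := Subgroup.card_mul_index (MulAction.stabilizer M24 s)
  rw [MulAction.index_stabilizer, Cfsg.Agent.Lib.M24Orb.Subsets.orbit_eq_of_card (by omega), hs,
    Cfsg.Agent.Lib.M24Orb.Subsets.card_all_subsets, card_M24] at h1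
  have h2 : Nat.choose 24 2 = 276 := by decide
  rw [h2] at h1
  generalize Nat.card ↥(MulAction.stabilizer M24 s) = n at h1 ⊢
  omega

/-- **Subgroups of order 887040 are stabilisers of pairs.** -/
theorem main_276 (H : Subgroup ↥M24) (hcard : Nat.card H = 887040) :
    ∃ s : Finset GolayPt, s.card = 2 ∧ H = MulAction.stabilizer M24 s := by
  classical
  let K : Subgroup (Equiv.Perm GolayPt) := H.map M24.subtype
  have hK : K ≤ M24 := by
    rintro _ ⟨y, -, rfl⟩
    exact y.2
  have hcK : Nat.card K = 887040 := by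
    rw [← hcard]
    exact Subgroup.card_map_of_injective M24.subtype_injective
  have hKmem : ∀ {y : ↥M24}, y ∈ H → y.1 ∈ K := fun {y} hy => ⟨y, hy, rfl⟩
  obtain ⟨t, ht, ht1, ht11⟩ := exists_order K (p := 11) (by norm_num) (by rw [hcK]; norm_num)
  obtain ⟨e, he, he1, he7⟩ := exists_order K (p := 7) (by norm_num) (by rw [hcK]; norm_num)
  have hc := card_fix11 (hK ht) ht1 ht11
  obtain ⟨a, ha⟩ : (fixS t).Nonempty := Finset.card_pos.mp (by omega)
  have hta := mem_fixS.mp ha
  have h2 := card_orb_mul K a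
  rw [hcK] at h2
  rcases orbit_size hK ht he ht1 ht11 he1 he7 hta with h1 | h1 | h1 | h1
  · -- a fixed point
    exfalso
    have hle : H ≤ MulAction.stabilizer M24 a := by
      intro y hy
      rw [MulAction.mem_stabilizer_iff]
      obtain ⟨z, hz⟩ := Finset.card_eq_one.mp h1
      have h4 := self_mem_orb K a
      have h5 : y.1 a ∈ orb K a := (smul_mem_orb (hKmem hy) a).mpr h4
      rw [hz, Finset.mem_singleton] at h4 h5
      exact h5.trans h4.symm
    have hd := Subgroup.card_dvd_of_le hle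
    rw [hcard, card_stab_one] at hd
    omega
  · -- a pair
    refine ⟨orb K a, h1, ?_⟩
    apply Subgroup.eq_of_le_of_card_ge
    · intro y hy
      rw [MulAction.mem_stabilizer_iff]
      apply Finset.eq_of_subset_of_card_le
      · intro x hx
        obtain ⟨z, hz, rfl⟩ := Finset.mem_smul_finset.mp hx
        exact (smul_mem_orb (hKmem hy) z).mpr hz
      · rw [show (y • orb K a) = (y.1 • orb K a) from rfl, Finset.card_smul_finset]
    · rw [card_stab_pair h1, hcard]
  · exfalso
    rw [h1] at h2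
    generalize Nat.card ↥(stabK K a) = n at h2
    omega
  · -- transitive
    exfalso
    have hall : orb K a = Finset.univ := by
      apply Finset.eq_univ_of_card
      rw [h1, card_golayPt]
    apply not_transitive hK hcK
    intro p
    have hp : p ∈ orb K a := by rw [hall]; exact Finset.mem_univ _
    obtain ⟨x, hx, rfl⟩ := mem_orb.mp hp
    have hsub : orb K a ⊆ orb K (x a) := by
      intro w hw
      obtain ⟨y, hy, rfl⟩ := mem_orb.mp hw
      exact mem_orb.mpr ⟨y * x⁻¹, K.mul_mem hy (K.inv_mem hx), by simp⟩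
    have h3 := Finset.card_le_card hsub
    have h4 := Finset.card_le_univ (orb K (x a))
    rw [card_golayPt] at h4
    omega

end Cfsg.Agent.Lib.M24Orb.Index276
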